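import Mathlib
import Cfsg.Agent.Lib.ClMax.ExtBasic
import Cfsg.Agent.Lib.ClMax.SpTv

/-!
Maximality of the field extension subgroups `Sp_{n/r}(q^r).r` of `Sp_n(q)`.
-/

set_option autoImplicit false

namespace CfsgLib.ClMax

open CfsgLib.Forms Module Matrix

universe u

variable {F K V : Type*} [Field F] [Field K] [Algebra F K] [AddCommGroup V]
  [Module F V] [Module K V] [IsScalarTower F K V]

/-- `B` is the composite of the alternating `K`-form `f` with the functional `l`, and `M` is a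
group of isometries of `B` containing those of `f`. -/
structure ExtData (B : LinearMap.BilinForm F V) (f : LinearMap.BilinForm K V) (l : K →ₗ[F] F)
    (M : Subgroup (V ≃ₗ[F] V)) : Prop where
  hl : l ≠ 0
  hA : B.IsAlt
  hB : B.Nondegenerate
  hA' : f.IsAlt
  hf : f.Nondegenerate
  eq : ∀ u v, B u v = l (f u v)
  hM : M ≤ spIso B
  hK : ∀ t ∈ spIso f, t.restrictScalars F ∈ M

theorem exists_extForm [FiniteDimensional F K] {B : LinearMap.BilinForm F V}
    (hB : B.Nondegenerate) (hsa : ∀ (k : K) u v, B (k • u) v = B u (k • v))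
    (halt : ∀ (k : K) v, B (k • v) v = 0) {l : K →ₗ[F] F} (hl : l ≠ 0) :
    ∃ f : LinearMap.BilinForm K V, f.IsAlt ∧ f.Nondegenerate ∧ ∀ u v, B u v = l (f u v) := by
  choose ψ hψ using fun u => exists_dual_lift (V := V) hl (B u)
  have hext : ∀ a b : K, (∀ k, l (k * a) = l (k * b)) → a = b := fun a b h =>
    sub_eq_zero.1 (eq_zero_of_forall_mul hl fun k => by rw [mul_sub, map_sub, h, sub_self])
  let f : LinearMap.BilinForm K V :=
    { toFun := ψ
      map_add' := fun u v => LinearMap.ext fun w => hext _ _ fun k => by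
        simp [hψ, mul_add]
      map_smul' := fun c u => LinearMap.ext fun w => hext _ _ fun k => by
        simp only [RingHom.id_apply, LinearMap.smul_apply, smul_eq_mul]
        rw [← mul_assoc, hψ, hψ, hsa, smul_smul, mul_comm] }
  have hf : ∀ u v, B u v = l (f u v) := fun u v => by
    have := hψ u 1 v
    rw [one_mul, one_smul] at this
    exact this.symm
  have hA : f.IsAlt := fun u => eq_zero_of_forall_mul hl fun k => by
    rw [show f u u = ψ u u from rfl, hψ, ← hsa, halt]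
  refine ⟨f, hA, ?_, hf⟩
  rw [LinearMap.BilinForm.Nondegenerate, LinearMap.IsRefl.nondegenerate_iff_separatingLeft hA.isRefl]
  exact fun u hu => hB.1 u fun v => by rw [hf, hu, map_zero]

namespace ExtData

variable {B : LinearMap.BilinForm F V} {f : LinearMap.BilinForm K V} {l : K →ₗ[F] F}
  {M : Subgroup (V ≃ₗ[F] V)}

theorem eq_smul (h : ExtData B f l M) (k : K) (u v : V) : B (k • u) v = l (k * f u v) := by
  rw [h.eq]; simp

theorem ext (h : ExtData B f l M) {a b : K} (hab : ∀ k, l (k * a) = l (k * b)) : a = b :=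
  sub_eq_zero.1 (eq_zero_of_forall_mul h.hl fun k => by rw [mul_sub, map_sub, hab, sub_self])

variable [FiniteDimensional K V]

theorem move (h : ExtData B f l M) (H : Submodule K V) {u u' : V} (hu : u ∉ H) (hu' : u' ∉ H)
    (hh : ∀ x ∈ H, f x u' = f x u) : ∃ g ∈ M, (∀ (k : K) x, g (k • x) = k • g x) ∧
      (∀ x y, f (g x) (g y) = f x y) ∧ (∀ x ∈ H, g x = x) ∧ g u = u' := by
  obtain ⟨g, hg, h1, h2⟩ := exists_isom_move h.hA' h.hf H hu hu' hh
  exact ⟨_, h.hK g hg, fun k x => g.map_smul k x, hg, h1, h2⟩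

theorem trans (h : ExtData B f l M) {v w : V} (hv : v ≠ 0) (hw : w ≠ 0) :
    ∃ g ∈ M, (∀ (k : K) x, g (k • x) = k • g x) ∧ (∀ x y, f (g x) (g y) = f x y) ∧ g v = w := by
  obtain ⟨g, hg, h1, h2, -, h3⟩ := h.move ⊥ (u := v) (u' := w) (by simpa) (by simpa)
    (fun x hx => by simp [(Submodule.mem_bot K).1 hx])
  exact ⟨g, hg, h1, h2, h3⟩

theorem flex (h : ExtData B f l M) (u : V) (k : K) (x : V) (hx : x ∉ Submodule.span K {u}) :
    ∃ t ∈ M, (∀ c : K, t (c • u) = c • u) ∧ t x = x + k • u ∧ ∀ v, t (t v - v) = t v - v := by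
  obtain ⟨w, d, hw, h1, h2⟩ : ∃ w d, f u w = 0 ∧ f w x + d * f u x = k ∧ f u x • w = 0 := by
    by_cases hux : f u x = 0
    · obtain ⟨a, ha, ha'⟩ := exists_dual h.hA' h.hf _ hx
      have h1 := ha' u (Submodule.mem_span_singleton_self u)
      refine ⟨k • a, 0, ?_, by simp [ha], by simp [hux]⟩
      rw [← h.hA'.neg_eq]; simp [h1]
    · exact ⟨0, k / f u x, by simp, by simp [hux], by simp⟩
  have hw' : f w u = 0 := by rw [← h.hA'.neg_eq, hw, neg_zero]
  refine ⟨_, h.hK _ (heis_mem h.hA' u w hw d), fun c => ?_, ?_, fun v => ?_⟩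
  · simp [heis_apply, hw', h.hA'.self_eq_zero]
  · simp [heis_apply, h1, h2]
  · simp only [LinearEquiv.restrictScalars_apply, heis_apply, add_assoc, add_sub_cancel_left]
    simp [hw, hw', h.hA'.self_eq_zero]

omit [FiniteDimensional K V] in
theorem two_le (h : ExtData B f l M) [FiniteDimensional K V] {u : V} (hu : u ≠ 0) :
    2 ≤ finrank K V := by
  obtain ⟨a, ha⟩ := exists_B_eq_one h.hA' h.hf hu
  by_contra h1
  obtain ⟨v, hv⟩ := finrank_le_one_iff.1 (show finrank K V ≤ 1 by omega)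
  obtain ⟨c, rfl⟩ := hv a
  obtain ⟨d, rfl⟩ := hv u
  simp [h.hA'.self_eq_zero] at ha

/-- The main case: an element stabilising `K u` that is not semilinear on it. -/
theorem full_of_not_semi [Finite K] (h : ExtData B f l M) (hr : (finrank F K).Prime) {u : V}
    (hu : u ≠ 0) {g : V ≃ₗ[F] V} (hg : g ∈ M) {α : K →ₗ[F] K} (hα : ∀ k, g (k • u) = α k • u)
    (hns : ¬ Semi α) : Full B M u := by
  obtain ⟨u', hu'⟩ : ∃ u', f u u' = 1 := by
    obtain ⟨a, ha⟩ := exists_B_eq_one h.hA' h.hf hu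
    exact ⟨-a, by rw [map_neg, h.hA'.neg_eq, ha]⟩
  have hαs : Function.Surjective α := by
    refine Finite.surjective_of_injective fun a b hab => ?_
    have : g (a • u) = g (b • u) := by rw [hα, hα, hab]
    exact smul_left_injective K hu (g.injective this)
  let a : K →ₗ[F] K := (f u).restrictScalars F ∘ₗ (g : V →ₗ[F] V) ∘ₗ
    (LinearMap.toSpanSingleton K V u').restrictScalars F
  have ha : ∀ k, a k = f u (g (k • u')) := fun k => rfl
  have hrel : ∀ k v, l (α k * f u (g v)) = l (k * f u v) := fun k v => by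
    rw [← h.eq_smul, ← hα, h.hM hg, h.eq_smul]
  have ha' : ∀ v, f u (g v) = a (f u v) := by
    intro v
    refine h.ext fun k => ?_
    obtain ⟨k, rfl⟩ := hαs k
    rw [ha, hrel, hrel]
    simp [hu']
  have hrel' : ∀ k m, l (α k * a m) = l (k * m) := fun k m => by
    rw [ha, hrel]; simp [hu']
  have hna : ¬ Semi a := by
    intro hs
    obtain ⟨c, σ, hc⟩ := hs.exists_eq
    have hc0 : c ≠ 0 := by
      rintro rfl
      apply h.hl
      ext z
      simpa [hc] using (hrel' z 1).symm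
    refine hns fun m => ⟨σ m, fun k => h.ext fun z => ?_⟩
    obtain ⟨z, rfl⟩ : ∃ z', c * σ z' = z := ⟨σ.symm (c⁻¹ * z), by simp [hc0]⟩
    have h1 := hrel' (m * k) z
    have h2 := hrel' k (m * z)
    rw [hc] at h1 h2
    rw [map_mul σ] at h2
    rw [mul_comm, h1, show c * σ z * (σ m * α k) = α k * (c * (σ m * σ z)) by ring, h2]
    congr 1; ring
  have hfix : ∀ (s : LinearMap.BilinForm F K) (t : V ≃ₗ[F] V),
      (∀ v w, B (t v) w = B v w + s (f u v) (f u w)) → ∀ v, f u (t v) = f u v := by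
    intro s t ht v
    refine h.ext fun k => ?_
    have h1 := ht v (k • u)
    rw [← h.hA.neg_eq, ← h.hA.neg_eq (k • u), h.eq_smul, h.eq_smul] at h1
    simpa [h.hA'.self_eq_zero] using h1
  let R : AddSubgroup (LinearMap.BilinForm F K) :=
    { carrier := {s | ∃ t ∈ M, ∀ v w, B (t v) w = B v w + s (f u v) (f u w)}
      zero_mem' := ⟨1, M.one_mem, fun v w => by simp⟩
      add_mem' := by
        rintro s s' ⟨t, ht, h1⟩ ⟨t', ht', h2⟩
        refine ⟨t * t', M.mul_mem ht ht', fun v w => ?_⟩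
        rw [LinearEquiv.mul_apply, h1, h2, hfix s' t' h2]
        simp only [LinearMap.add_apply]; ring
      neg_mem' := by
        rintro s ⟨t, ht, h1⟩
        refine ⟨t⁻¹, M.inv_mem ht, fun v w => ?_⟩
        have h2 := h1 (t⁻¹ v) w
        have h3 := hfix s t h1 (t⁻¹ v)
        rw [apply_inv_apply] at h2 h3
        rw [h2, h3]
        simp }
  have hconj : ∀ (p : V ≃ₗ[F] V), p ∈ M → ∀ φ : K →ₗ[F] K, (∀ v, f u (p v) = φ (f u v)) →
      ∀ s ∈ R, ∃ s' ∈ R, ∀ x y, s' x y = s (φ x) (φ y) := by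
    rintro p hp φ hφ s ⟨t, ht, h1⟩
    refine ⟨s.comp φ φ, ⟨p⁻¹ * t * p, M.mul_mem (M.mul_mem (M.inv_mem hp) ht) hp, fun v w => ?_⟩,
      fun x y => rfl⟩
    rw [← h.hM hp, LinearEquiv.mul_apply, LinearEquiv.mul_apply, apply_inv_apply, h1, h.hM hp,
      hφ, hφ]
    rfl
  intro e
  obtain ⟨s, ⟨t, ht, h1⟩, hs⟩ := weight_lemma hr R (fun s hs c hc => by
      obtain ⟨p, hp, hp1, hp2, hp3⟩ := h.trans (smul_ne_zero hc hu) hu
      refine hconj p hp (LinearMap.mulLeft F c) (fun v => ?_) s hs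
      conv_lhs => rw [← hp3, hp2]
      simp) h.hl
    ⟨(LinearMap.mul F K).compr₂ l, ⟨_, h.hK _ (tv_mem h.hA' u 1), fun v w => by
      simp [tv_apply, h.eq_smul]⟩, fun x y => rfl⟩ hna (hconj g hg a ha') l e
  refine ⟨t, ht, fun v => ?_⟩
  rw [← sub_eq_zero]
  refine h.hB.1 _ fun w => ?_
  simp only [map_sub, map_add, map_smul, LinearMap.sub_apply, LinearMap.add_apply,
    LinearMap.smul_apply, h1, hs, h.eq u, smul_eq_mul]
  ring

omit [FiniteDimensional K V] in
/-- In degree two every `β` occurs in a `K`-transvection written as a Heisenberg element. -/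
theorem hIn_line (h : ExtData B f l M) [Finite K] (hr : finrank F K = 2) (h2 : (2 : F) = 0)
    (y : V) (β : K) (hβ : β ∉ Submodule.span F {(1 : K)}) :
    ∃ e, e ≠ 0 ∧ HIn B M y (β • y) e := by
  obtain ⟨z₁, hz₁⟩ : ∃ z₁, l z₁ = 1 := by
    obtain ⟨z, hz⟩ := DFunLike.ne_iff.1 h.hl
    exact ⟨(l z)⁻¹ • z, by simp [inv_mul_cancel₀ (show l z ≠ 0 from hz)]⟩
  have hker : finrank F (LinearMap.ker l) = 1 := by
    have h1 := l.finrank_range_add_finrank_ker
    have h3 : LinearMap.range l = ⊤ := LinearMap.range_eq_top.2 fun c => ⟨c • z₁, by simp [hz₁]⟩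
    rw [h3, finrank_top, finrank_self, hr] at h1
    omega
  obtain ⟨⟨z₀, hz₀⟩, hz0, hz⟩ := finrank_eq_one_iff'.1 hker
  have hz0' : z₀ ≠ 0 := fun h => hz0 (Subtype.ext h)
  have hz' : ∀ z, l z = 0 → ∃ c : F, c • z₀ = z := fun z h => by
    obtain ⟨c, hc⟩ := hz ⟨z, h⟩
    exact ⟨c, congr_arg Subtype.val hc⟩
  rw [LinearMap.mem_ker] at hz₀
  let d : K := l (β * z₀) • z₀⁻¹
  have hd : d * z₀ = algebraMap F K (l (β * z₀)) := by
    simp [d, Algebra.smul_def, hz0']
  obtain ⟨e', he'⟩ := hz' ((d * z₁ - β) * z₀) (by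
    rw [sub_mul, mul_right_comm, hd, ← Algebra.smul_def, map_sub, map_smul, hz₁]; simp)
  have he'' : d * z₁ - β = algebraMap F K e' := by
    rw [Algebra.smul_def] at he'
    exact (mul_right_cancel₀ hz0' he').symm
  have key : ∀ z, d * z = algebraMap F K (l (β * z) + (e' - l (β * z₁)) * l z) + l z • β := by
    intro z
    obtain ⟨c, hc⟩ := hz' (z - l z • z₁) (by simp [hz₁])
    have h3 : z = c • z₀ + l z • z₁ := by rw [hc]; abel
    have h4 : l (β * z) = c * l (β * z₀) + l z * l (β * z₁) := by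
      conv_lhs => rw [h3]
      simp [mul_add]
    rw [h4]
    conv_lhs => rw [h3]
    simp only [Algebra.smul_def, map_add, map_mul, map_sub]
    linear_combination algebraMap F K c * hd + algebraMap F K (l z) * he''
  refine ⟨e' - l (β * z₁), fun he => ?_, _, h.hK _ (tv_mem h.hA' y d), fun v => ?_⟩
  · have h2' : (2 : K) = 0 := by rw [← map_ofNat (algebraMap F K) 2, h2, map_zero]
    have hd0 : d ≠ 0 := by
      intro hd0
      rw [hd0, zero_mul, eq_comm, map_eq_zero] at hd
      obtain ⟨c, hc⟩ := hz' _ hd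
      rw [Algebra.smul_def] at hc
      exact hβ (Submodule.mem_span_singleton.2
        ⟨c, by rw [← mul_right_cancel₀ hz0' hc, Algebra.algebraMap_eq_smul_one]⟩)
    apply h.hl
    ext z
    have : CharP K 2 := CharTwo.of_one_ne_zero_of_two_eq_zero one_ne_zero h2'
    obtain ⟨w, hw⟩ := FiniteField.isSquare_of_char_two (ringChar.eq K 2) (d⁻¹ * z)
    have h3 : z = d * w * w := by rw [mul_assoc, ← hw, mul_inv_cancel_left₀ hd0]
    rw [h3, key, he, zero_mul, add_zero, add_mul, ← Algebra.smul_def, smul_mul_assoc, map_add,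
      map_smul, map_smul]
    simp only [smul_eq_mul, LinearMap.zero_apply]
    linear_combination l (β * w) * l w * h2
  · simp only [LinearEquiv.restrictScalars_apply, tv_apply, key, h.eq_smul, h.eq y, add_smul,
      algebraMap_smul, smul_assoc, add_assoc]

/-- The exceptional case: degree two, characteristic two, `K`-dimension at least three. -/
theorem full_of_two [Finite K] (h : ExtData B f l M) (hr : finrank F K = 2) (h2 : (2 : F) = 0)
    (hd : 3 ≤ finrank K V) {y : V} (hy : y ≠ 0) {g : V ≃ₗ[F] V} (hg : g ∈ M) (hgy : g y = y)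
    {β : K} (hβ : g (β • y) ∉ Submodule.span K {y}) : Full B M y := by
  have : Finite F := Finite.of_injective _ (algebraMap F K).injective
  obtain ⟨e, he, hb⟩ := h.hIn_line hr h2 y β (fun h1 => by
    obtain ⟨c, rfl⟩ := Submodule.mem_span_singleton.1 h1
    apply hβ
    rw [smul_one_smul, map_smul, hgy]
    exact Submodule.smul_of_tower_mem _ _ (Submodule.mem_span_singleton_self _))
  have hz := hb.conj h.hM hg
  rw [hgy] at hz
  have hyb : B y (β • y) = 0 := by rw [h.eq]; simp [h.hA'.self_eq_zero]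
  have hyz : B y (g (β • y)) = 0 := by
    have := h.hM hg y (β • y)
    rwa [hgy, hyb] at this
  set z := g (β • y)
  have hmove : ∀ x x' : V, x ∉ Submodule.span K {y} → x' ∉ Submodule.span K {y} →
      f y x' = f y x → ∀ d, HIn B M y x d → HIn B M y x' d := by
    intro x x' hx hx' hxx d hd
    obtain ⟨p, hp, -, -, h3, h4⟩ := h.move _ hx hx' (fun w hw => by
      obtain ⟨c, rfl⟩ := Submodule.mem_span_singleton.1 hw
      simp [hxx])
    have := hd.conj h.hM hp
    rwa [h3 y (Submodule.mem_span_singleton_self y), h4] at this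
  obtain ⟨w, e', hw, hw', hwe⟩ : ∃ w e', w ∉ Submodule.span K {y} ∧ f y w = 0 ∧ HIn B M y w e' := by
    by_cases hz0 : f y z = 0
    · exact ⟨z, e, hβ, hz0, hz⟩
    · obtain ⟨w, -, hw, hw'⟩ := exists_orth_not_mem f ⊤ (Submodule.span K {y}) ![y] (by
        have := finrank_span_singleton_le (F := K) y
        rw [finrank_top]; omega)
      have hw0 : f y w = 0 := hw 0
      have h3 := hmove z (z + w) hβ (fun h3 => by
        obtain ⟨c, hc⟩ := Submodule.mem_span_singleton.1 h3
        have h4 : f y (z + w) = 0 := by rw [← hc]; simp [h.hA'.self_eq_zero]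
        simp [hw0, hz0] at h4) (by simp [hw0]) e hz
      have h4 := h3.div h.hA (by rw [map_add, hyz, h.eq, hw0]; simp) hyz hz
      exact ⟨w, _, hw', hw0, h4.congr rfl (by abel) rfl⟩
  have hyw : B y w = 0 := by rw [h.eq, hw', map_zero]
  have h3 := hmove w (w + β • y) hw (fun h3 => hw (by
    simpa using Submodule.sub_mem _ h3
      (Submodule.smul_mem _ β (Submodule.mem_span_singleton_self y))))
    (by simp [h.hA'.self_eq_zero]) e' hwe
  have h4 := (h3.div h.hA (by rw [map_add, hyw, hyb, add_zero]) hyw hwe).congr rfl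
    (b' := β • y) (d' := 0) (by abel)
    (by simp [h.hA.self_eq_zero, h.eq_smul, hw'])
  have h5 := (hb.div h.hA hyb hyb h4).congr rfl (b' := 0) (d' := e) (by simp)
    (by simp [h.hA.self_eq_zero])
  rw [← tvIn_iff] at h5
  refine full_of_sq h.hA he fun c => ?_
  by_cases hc : c = 0
  · simpa [hc] using tvIn_zero y
  · obtain ⟨p, hp, -, -, hp3⟩ := h.trans hy (smul_ne_zero hc hy)
    rw [← tvIn_smul, ← hp3]
    exact h5.conj h.hM hp

theorem full [Finite K] (h : ExtData B f l M) (hr : (finrank F K).Prime)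
    (hex : finrank F K = 2 → (∃ c : F, c ≠ 0 ∧ c ≠ 1) ∨ 3 ≤ finrank K V) {g : V ≃ₗ[F] V}
    (hg : g ∈ M) (hgs : ¬ SemiK K g) (x : V) : Full B M x := by
  by_cases hx : x = 0
  · rw [hx]; exact full_zero
  have h1 := exists_fix_not_line (h.two_le hx) (fun v w hv hw => by
    obtain ⟨p, hp, h1, -, h2⟩ := h.trans hv hw
    exact ⟨p, hp, h1, h2⟩) hg hgs hx
  by_cases h2 : finrank F K = 2 → ∃ c : F, c ≠ 0 ∧ c ≠ 1
  · obtain ⟨p, hp, α, hα, hns⟩ := exists_not_semi hr h2 hx (h.flex x) h1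
    exact h.full_of_not_semi hr hx hp hα hns
  · push Not at h2
    obtain ⟨g', hg', h3, β, hβ⟩ := h1
    refine h.full_of_two h2.1 ?_ ((hex h2.1).resolve_left ?_) hx hg' h3 hβ
    · by_contra h4
      have := h2.2 2 h4
      exact one_ne_zero (by linear_combination this : (1 : F) = 0)
    · rintro ⟨c, hc0, hc1⟩
      exact hc1 (h2.2 c hc0)

omit [FiniteDimensional K V] in
theorem exists_not_semiK (h : ExtData B f l M) (hr : 2 ≤ finrank F K) [FiniteDimensional F V]
    {u : V} (hu : u ≠ 0) : ∃ g ∈ spIso B, ¬ SemiK K g := by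
  obtain ⟨β, hβ⟩ := exists_not_mem_range hr
  obtain ⟨z, hz, hz'⟩ := exists_dual h.hA h.hB (Submodule.span F {u}) (u := β • u) (fun h1 => by
    obtain ⟨c, hc⟩ := Submodule.mem_span_singleton.1 h1
    refine hβ (Submodule.mem_span_singleton.2 ⟨c, smul_left_injective K hu ?_⟩)
    simpa using hc)
  have hzu := hz' u (Submodule.mem_span_singleton_self u)
  refine ⟨tv h.hA z 1, tv_mem _ _ _, fun hs => ?_⟩
  obtain ⟨k, hk⟩ := hs β
  have h1 := hk u
  rw [tv_apply, tv_apply, hz, hzu] at h1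
  have h2 : z = (k - β) • u := by
    rw [sub_smul]
    simpa [eq_sub_iff_add_eq'] using h1
  rw [h2, h.eq] at hz
  simp [h.hA'.self_eq_zero] at hz

end ExtData

theorem exists_ne_zero_one_of_card {F : Type*} [Field F] [Fintype F] (h : Fintype.card F ≠ 2) :
    ∃ c : F, c ≠ 0 ∧ c ≠ 1 := by
  by_contra hh
  push Not at hh
  classical
  have h1 : (Finset.univ : Finset F) ⊆ {0, 1} := fun c _ => by
    by_cases hc : c = 0
    · simp [hc]
    · simp [hh c hc]
  have h2 := (Finset.card_le_card h1).trans Finset.card_le_two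
  have h3 : 1 < Fintype.card F := Fintype.one_lt_card
  rw [Finset.card_univ] at h2
  omega

/-- `Sp_{2m/r}(q^r).r` is maximal in `Sp_{2m}(q)` (the case `Sp_4(2)` is left out). -/
theorem isMaximalIn_spGL_ext {F : Type u} [Field F] [Fintype F] (m : ℕ) (hm : 1 ≤ m) (r : ℕ)
    (hr : r.Prime) (hex : r = 2 → Fintype.card F ≠ 2 ∨ 3 ≤ m)
    (K₀ : Subalgebra F (Matrix (Fin m ⊕ Fin m) (Fin m ⊕ Fin m) F))
    (hK : Cfsg.Geo.IsFieldSubalgebra r K₀)
    (hsa : Cfsg.Geo.IsSelfAdjointFor (Cfsg.sympForm m F) K₀)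
    (halt : ∀ k ∈ K₀, ∀ v, Cfsg.sympForm m F (Matrix.mulVec k v) v = 0) :
    Cfsg.Geo.IsMaximalIn (Cfsg.spGL m F) (Cfsg.Geo.subalgebraNormalizer K₀ ⊓ Cfsg.spGL m F) := by
  have hA := spB_isAlt (Fin m) F
  have hB := spB_nondegenerate (Fin m) F
  have : Nonempty (Fin m ⊕ Fin m) := ⟨Sum.inl ⟨0, hm⟩⟩
  refine with_ext_field hK fun K _ _ _ _ _ hrK hdim hmem _ hN => ?_
  obtain ⟨l, hl⟩ := exists_dual_ne_zero F K
  have hl0 : l ≠ 0 := by rintro rfl; simp at hl
  have hfd' : FiniteDimensional K (Fin m ⊕ Fin m → F) := Module.Finite.of_finite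
  obtain ⟨f, hA', hf', hBf⟩ := exists_extForm (K := K) hB
    (fun k u v => by
      obtain ⟨a, ha, h⟩ := hmem k
      simpa only [spB_eq_sympForm, h] using hsa a ha u v)
    (fun k v => by
      obtain ⟨a, ha, h⟩ := hmem k
      simpa only [spB_eq_sympForm, h] using halt a ha v) hl0
  have hdata : ∀ M : Subgroup ((Fin m ⊕ Fin m → F) ≃ₗ[F] (Fin m ⊕ Fin m → F)),
      M ≤ spIso (spB (Fin m) F) → (∀ g ∈ spIso (spB (Fin m) F), SemiK K g → g ∈ M) →
      ExtData (spB (Fin m) F) f l M := fun M hM hH =>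
    ⟨hl0, hA, hB, hA', hf', hBf, hM, fun t ht => hH _ (fun u v => by
      rw [hBf, hBf]; exact congr_arg l (ht u v)) (semiK_restrict t)⟩
  refine isMaximalIn_spGL _ (SemiK K)
    (fun g _ => hN g _ (glEquiv_apply g)) ?_ fun M hM hH g hg hgs x => ?_
  · obtain ⟨u, hu⟩ := exists_ne (0 : Fin m ⊕ Fin m → F)
    exact (hdata _ le_rfl fun g hg _ => hg).exists_not_semiK (hrK ▸ hr.two_le) hu
  · refine (hdata M hM hH).full (hrK ▸ hr) (fun h2 => ?_) hg hgs x
    rw [hrK] at h2
    refine (hex h2).imp exists_ne_zero_one_of_card fun h3 => ?_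
    rw [h2, Fintype.card_sum, Fintype.card_fin] at hdim
    omega

end CfsgLib.ClMax
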